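import Cfsg.Agent.H6.LR.S.D0

set_option autoImplicit false
set_option maxRecDepth 100000
set_option Elab.async false

namespace Cfsg.H6.LR.S

open Ly.M (P ok)

theorem d79 : Nat.beq (trF (P.img P.d code) [7] (code 3)) (code 79) = true := by
  decide +kernel

theorem d80 : Nat.beq (trF (P.img P.d code) [79,79,79,79,79,79,79,79,79] (code 79)) (code 80) = true := by
  decide +kernel

theorem d81 : Nat.beq (trF (P.img P.d code) [78,8,5,2,2,80,1,1,6,7,77] (code 80)) (code 81) = true := by
  decide +kernel

theorem d82 : Nat.beq (trF (P.img P.d code) [1,6,7,77,81,81] (code 1)) (code 82) = true := by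
  decide +kernel

theorem d83 : Nat.beq (trF (P.img P.d code) [83] (code 82)) P.one = true := by
  decide +kernel

theorem d84 : Nat.beq (trF (P.img P.d code) [83,83,83] (code 83)) (code 84) = true := by
  decide +kernel

theorem d85 : Nat.beq (trF (P.img P.d code) [5,5,1,78,8,5,80,6,7,77,2,6,6] (code 80)) (code 85) = true := by
  decide +kernel

theorem d86 : Nat.beq (trF (P.img P.d code) [7,77,2,6,6,85,85,85,85,85,85,85] (code 6)) (code 86) = true := by
  decide +kernel

theorem d87 : Nat.beq (trF (P.img P.d code) [87] (code 86)) P.one = true := by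
  decide +kernel

theorem d88 : Nat.beq (trF (P.img P.d code) [84,86] (code 87)) (code 88) = true := by
  decide +kernel


end Cfsg.H6.LR.S
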