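import Cfsg.Agent.H6.LR.S.D0

set_option autoImplicit false
set_option maxRecDepth 100000
set_option Elab.async false

namespace Cfsg.H6.LR.S

open Ly.M (P ok)

theorem d89 : Nat.beq (trF (P.img P.d code) [88,83] (code 82)) (code 89) = true := by
  decide +kernel

theorem d90 : Nat.beq (trF (P.img P.d code) [89,86] (code 87)) (code 90) = true := by
  decide +kernel

theorem d91 : Nat.beq (trF (P.img P.d code) [90,82] (code 83)) (code 91) = true := by
  decide +kernel

theorem d92 : Nat.beq (trF (P.img P.d code) [84,87] (code 86)) (code 92) = true := by
  decide +kernel

theorem d93 : Nat.beq (trF (P.img P.d code) [92,82] (code 83)) (code 93) = true := by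
  decide +kernel

theorem d94 : Nat.beq (trF (P.img P.d code) [93,82] (code 83)) (code 94) = true := by
  decide +kernel

theorem d95 : Nat.beq (trF (P.img P.d code) [94,86] (code 87)) (code 95) = true := by
  decide +kernel

theorem d96 : Nat.beq (trF (P.img P.d code) [84] (code 84)) (code 96) = true := by
  decide +kernel

theorem d97 : Nat.beq (trF (P.img P.d code) [93,87] (code 86)) (code 97) = true := by
  decide +kernel

theorem d98 : Nat.beq (trF (P.img P.d code) [97,83] (code 82)) (code 98) = true := by
  decide +kernel

theorem d99 : Nat.beq (trF (P.img P.d code) [98] (code 98)) (code 99) = true := by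
  decide +kernel

theorem d100 : Nat.beq (trF (P.img P.d code) [92,83] (code 82)) (code 100) = true := by
  decide +kernel

theorem d101 : Nat.beq (trF (P.img P.d code) [100,83] (code 82)) (code 101) = true := by
  decide +kernel

theorem d102 : Nat.beq (trF (P.img P.d code) [101,86] (code 87)) (code 102) = true := by
  decide +kernel

theorem d103 : Nat.beq (trF (P.img P.d code) [102] (code 102)) (code 103) = true := by
  decide +kernel

theorem d104 : Nat.beq (trF (P.img P.d code) [88,82] (code 83)) (code 104) = true := by
  decide +kernel

theorem d105 : Nat.beq (trF (P.img P.d code) [104,82] (code 83)) (code 105) = true := by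
  decide +kernel

theorem d106 : Nat.beq (trF (P.img P.d code) [105,82] (code 83)) (code 106) = true := by
  decide +kernel

theorem d107 : Nat.beq (trF (P.img P.d code) [106,87] (code 86)) (code 107) = true := by
  decide +kernel

theorem d108 : Nat.beq (trF (P.img P.d code) [107] (code 107)) (code 108) = true := by
  decide +kernel


end Cfsg.H6.LR.S
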