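import Cfsg.Agent.H6.LR.S.D0

set_option autoImplicit false
set_option maxRecDepth 100000
set_option Elab.async false

namespace Cfsg.H6.LR.S

open Ly.M (P ok)

theorem d109 : Nat.beq (trF (P.img P.d code) [91,95,96,99,91,103,108,80] (code 84)) (code 109) = true := by
  decide +kernel

theorem d110 : Nat.beq (trF (P.img P.d code) [95] (code 95)) (code 110) = true := by
  decide +kernel

theorem d111 : Nat.beq (trF (P.img P.d code) [91,95,98,102,110,108,98,80] (code 84)) (code 111) = true := by
  decide +kernel

theorem d112 : Nat.beq (trF (P.img P.d code) [91,95,98,102,96,108,91,80] (code 84)) (code 112) = true := by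
  decide +kernel

theorem d113 : Nat.beq (trF (P.img P.d code) [95,91,98,84,102,99,107,110] (code 84)) (code 113) = true := by
  decide +kernel

theorem d114 : Nat.beq (trF (P.img P.d code) [91,95,107,84,91,98,102] (code 84)) (code 114) = true := by
  decide +kernel

theorem d115 : Nat.beq (trF (P.img P.d code) [91,95,98,84,107,99,103] (code 84)) (code 115) = true := by
  decide +kernel

theorem d116 : Nat.beq (trF (P.img P.d code) [105,87] (code 86)) (code 116) = true := by
  decide +kernel

theorem d117 : Nat.beq (trF (P.img P.d code) [116,82] (code 83)) (code 117) = true := by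
  decide +kernel

theorem d118 : Nat.beq (trF (P.img P.d code) [117] (code 117)) (code 118) = true := by
  decide +kernel

theorem d119 : Nat.beq (trF (P.img P.d code) [88,86] (code 87)) (code 119) = true := by
  decide +kernel

theorem d120 : Nat.beq (trF (P.img P.d code) [119,86] (code 87)) (code 120) = true := by
  decide +kernel


end Cfsg.H6.LR.S
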