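import Cfsg.Agent.H6.LR.S.D0

set_option autoImplicit false
set_option maxRecDepth 100000
set_option Elab.async false

namespace Cfsg.H6.LR.S

open Ly.M (P ok)

theorem d121 : Nat.beq (trF (P.img P.d code) [120,86] (code 87)) (code 121) = true := by
  decide +kernel

theorem d122 : Nat.beq (trF (P.img P.d code) [121,86] (code 87)) (code 122) = true := by
  decide +kernel

theorem d123 : Nat.beq (trF (P.img P.d code) [122] (code 122)) (code 123) = true := by
  decide +kernel

theorem d124 : Nat.beq (trF (P.img P.d code) [94,82] (code 83)) (code 124) = true := by
  decide +kernel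

theorem d125 : Nat.beq (trF (P.img P.d code) [124,86] (code 87)) (code 125) = true := by
  decide +kernel

theorem d126 : Nat.beq (trF (P.img P.d code) [125,82] (code 83)) (code 126) = true := by
  decide +kernel

theorem d127 : Nat.beq (trF (P.img P.d code) [126,82] (code 83)) (code 127) = true := by
  decide +kernel

theorem d128 : Nat.beq (trF (P.img P.d code) [127] (code 127)) (code 128) = true := by
  decide +kernel

theorem d129 : Nat.beq (trF (P.img P.d code) [91,103,118,84,107,123,107,128,102] (code 84)) (code 129) = true := by
  decide +kernel

theorem d130 : Nat.beq (trF (P.img P.d code) [91] (code 91)) (code 130) = true := by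
  decide +kernel

theorem d131 : Nat.beq (trF (P.img P.d code) [130,84,95,98,103,98,107,110,122,128,122] (code 84)) (code 131) = true := by
  decide +kernel

theorem d132 : Nat.beq (trF (P.img P.d code) [123,127,118,80] (code 117)) (code 132) = true := by
  decide +kernel

theorem d133 : Nat.beq (trF (P.img P.d code) [6,6,78,6,80,5,77,5,5,1] (code 2)) (code 133) = true := by
  decide +kernel

theorem d134 : Nat.beq (trF (P.img P.d code) [133] (code 80)) (code 134) = true := by
  decide +kernel

theorem d135 : Nat.beq (trF (P.img P.d code) [134,134] (code 134)) (code 135) = true := by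
  decide +kernel


end Cfsg.H6.LR.S
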