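import Cfsg.Agent.H6.LR.S.D0

set_option autoImplicit false
set_option maxRecDepth 100000
set_option Elab.async false

namespace Cfsg.H6.LR.S

open Ly.M (P ok)

theorem d136 : Nat.beq (trF (P.img P.d code) [130,84,95,99,95,102,108,102] (code 84)) (code 136) = true := by
  decide +kernel

theorem d137 : Nat.beq (trF (P.img P.d code) [133] (code 136)) (code 137) = true := by
  decide +kernel

theorem d138 : Nat.beq (trF (P.img P.d code) [137,137,137] (code 137)) (code 138) = true := by
  decide +kernel

theorem d139 : Nat.beq (trF (P.img P.d code) [138] (code 135)) (code 139) = true := by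
  decide +kernel

theorem d140 : Nat.beq (trF (P.img P.d code) [109,131,129,114,112,132,139] (code 129)) (code 140) = true := by
  decide +kernel

theorem d141 : Nat.beq (trF (P.img P.d code) [109,111] (code 140)) (code 141) = true := by
  decide +kernel

theorem d142 : Nat.beq (trF (P.img P.d code) [132] (code 132)) (code 142) = true := by
  decide +kernel

theorem d143 : Nat.beq (trF (P.img P.d code) [80,142] (code 141)) (code 143) = true := by
  decide +kernel


end Cfsg.H6.LR.S
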